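import Cfsg.Prelude.Def_Spor_Mathieu
import Cfsg.Agent.H994.TwoGen.Basic
import Cfsg.Agent.H994.TwoGen.Chain
import Cfsg.Agent.MTwelveType.SylowModel
import Cfsg.Agent.J4.M24Hom
import Cfsg.Agent.H807.El.Mathieu

/-!
# Generators of the Mathieu groups containing a given group `11:5` (helper837)

`x = (z ↦ 2z)` of order 11, `f` of order 5 with `f x f⁻¹ = x³`, `w` inverting `f` with `(x w)³ = 1` (these generate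
`L₂(11)`), and elements `u, v, k` of order 4 with square `w`, acting on `f` as squaring:
`M11 = ⟨x, u⟩`, `M12 = ⟨x, u, v⟩`, `M22 = ⟨x, k⟩`, `M23 = ⟨x, v, k⟩`, `M24 = ⟨x, u, v, k⟩`.
-/

set_option autoImplicit false

namespace Cfsg.Agent.H837.JM.Math

open Cfsg Cfsg.Agent.H994.TwoGen Cfsg.Agent.H994.TwoGen.Chain
open Cfsg.Agent.J4.M24Hom (fn perm_ext)

/-- table -/
def tX : List ℕ := [0, 2, 4, 6, 8, 10, 12, 14, 16, 18, 20, 22, 1, 3, 5, 7, 9, 11, 13, 15, 17, 19, 21, 23]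
/-- table of the inverse -/
def tXi : List ℕ := [0, 12, 1, 13, 2, 14, 3, 15, 4, 16, 5, 17, 6, 18, 7, 19, 8, 20, 9, 21, 10, 22, 11, 23]
/-- the permutation `X` -/
def X : Equiv.Perm GolayPt where
  toFun := fn tX
  invFun := fn tXi
  left_inv := by decide +kernel
  right_inv := by decide +kernel

/-- table -/
def tF : List ℕ := [0, 18, 6, 3, 2, 21, 1, 5, 16, 12, 7, 19, 8, 9, 17, 15, 13, 11, 4, 22, 10, 20, 14, 23]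
/-- table of the inverse -/
def tFi : List ℕ := [0, 6, 4, 3, 18, 7, 2, 10, 12, 13, 20, 17, 9, 16, 22, 15, 8, 14, 1, 11, 21, 5, 19, 23]
/-- the permutation `F` -/
def F : Equiv.Perm GolayPt where
  toFun := fn tF
  invFun := fn tFi
  left_inv := by decide +kernel
  right_inv := by decide +kernel

/-- table -/
def tW : List ℕ := [0, 2, 1, 3, 18, 5, 6, 21, 16, 9, 20, 22, 13, 12, 17, 15, 8, 14, 4, 19, 10, 7, 11, 23]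
/-- table of the inverse -/
def tWi : List ℕ := [0, 2, 1, 3, 18, 5, 6, 21, 16, 9, 20, 22, 13, 12, 17, 15, 8, 14, 4, 19, 10, 7, 11, 23]
/-- the permutation `W` -/
def W : Equiv.Perm GolayPt where
  toFun := fn tW
  invFun := fn tWi
  left_inv := by decide +kernel
  right_inv := by decide +kernel

/-- table -/
def tU : List ℕ := [0, 18, 4, 3, 1, 19, 6, 17, 13, 9, 22, 10, 8, 16, 7, 23, 12, 21, 2, 5, 11, 14, 20, 15]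
/-- table of the inverse -/
def tUi : List ℕ := [0, 4, 18, 3, 2, 19, 6, 14, 12, 9, 11, 20, 16, 8, 21, 23, 13, 7, 1, 5, 22, 17, 10, 15]
/-- the permutation `U` -/
def U : Equiv.Perm GolayPt where
  toFun := fn tU
  invFun := fn tUi
  left_inv := by decide +kernel
  right_inv := by decide +kernel

/-- table -/
def tV : List ℕ := [3, 8, 16, 0, 12, 5, 9, 10, 2, 6, 21, 17, 18, 4, 11, 15, 1, 22, 13, 19, 7, 20, 14, 23]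
/-- table of the inverse -/
def tVi : List ℕ := [3, 16, 8, 0, 13, 5, 9, 20, 1, 6, 7, 14, 4, 18, 22, 15, 2, 11, 12, 19, 21, 10, 17, 23]
/-- the permutation `V` -/
def V : Equiv.Perm GolayPt where
  toFun := fn tV
  invFun := fn tVi
  left_inv := by decide +kernel
  right_inv := by decide +kernel

/-- table -/
def tK : List ℕ := [0, 18, 4, 15, 1, 9, 6, 16, 7, 5, 12, 17, 20, 10, 11, 3, 21, 22, 2, 19, 13, 8, 14, 23]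
/-- table of the inverse -/
def tKi : List ℕ := [0, 4, 18, 15, 2, 9, 6, 8, 21, 5, 13, 14, 10, 20, 22, 3, 7, 11, 1, 19, 12, 16, 17, 23]
/-- the permutation `K` -/
def K : Equiv.Perm GolayPt where
  toFun := fn tK
  invFun := fn tKi
  left_inv := by decide +kernel
  right_inv := by decide +kernel

/-- table -/
def tS : List ℕ := [23, 22, 11, 15, 17, 9, 19, 13, 20, 5, 16, 2, 21, 7, 18, 3, 10, 4, 14, 6, 8, 12, 1, 0]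
/-- table of the inverse -/
def tSi : List ℕ := [23, 22, 11, 15, 17, 9, 19, 13, 20, 5, 16, 2, 21, 7, 18, 3, 10, 4, 14, 6, 8, 12, 1, 0]
/-- the permutation `S` -/
def S : Equiv.Perm GolayPt where
  toFun := fn tS
  invFun := fn tSi
  left_inv := by decide +kernel
  right_inv := by decide +kernel

theorem X_mem24 : X ∈ M24 :=
  SporadicA.GolayWalk.mem_M24_of_table X tX rfl (by decide +kernel) (by decide +kernel)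

theorem F_mem24 : F ∈ M24 :=
  SporadicA.GolayWalk.mem_M24_of_table F tF rfl (by decide +kernel) (by decide +kernel)

theorem W_mem24 : W ∈ M24 :=
  SporadicA.GolayWalk.mem_M24_of_table W tW rfl (by decide +kernel) (by decide +kernel)

theorem U_mem24 : U ∈ M24 :=
  SporadicA.GolayWalk.mem_M24_of_table U tU rfl (by decide +kernel) (by decide +kernel)

theorem V_mem24 : V ∈ M24 :=
  SporadicA.GolayWalk.mem_M24_of_table V tV rfl (by decide +kernel) (by decide +kernel)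

theorem K_mem24 : K ∈ M24 :=
  SporadicA.GolayWalk.mem_M24_of_table K tK rfl (by decide +kernel) (by decide +kernel)

theorem S_mem24 : S ∈ M24 :=
  SporadicA.GolayWalk.mem_M24_of_table S tS rfl (by decide +kernel) (by decide +kernel)

theorem X_pow : X ^ 11 = 1 := by apply perm_ext; decide +kernel
theorem X_ne : X ≠ 1 := by decide +kernel
theorem F_pow : F ^ 5 = 1 := by apply perm_ext; decide +kernel
theorem F_ne : F ≠ 1 := by decide +kernel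
theorem F_X : F * X * F⁻¹ = X ^ 3 := by apply perm_ext; decide +kernel
theorem W_sq : W * W = 1 := by apply perm_ext; decide +kernel
theorem W_ne : W ≠ 1 := by decide +kernel
theorem W_F : W * F * W⁻¹ = F⁻¹ := by apply perm_ext; decide +kernel
theorem XW : (X * W) ^ 3 = 1 := by apply perm_ext; decide +kernel
theorem U_sq : U * U = W := by apply perm_ext; decide +kernel
theorem U_F : U * F * U⁻¹ = F ^ 2 := by apply perm_ext; decide +kernel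
theorem U_rel : (X ^ 7 * U) ^ 3 = 1 := by apply perm_ext; decide +kernel
theorem V_sq : V * V = W := by apply perm_ext; decide +kernel
theorem V_F : V * F * V⁻¹ = F ^ 2 := by apply perm_ext; decide +kernel
theorem V_rel : (X ^ 4 * V) ^ 3 = 1 := by apply perm_ext; decide +kernel
theorem K_sq : K * K = W := by apply perm_ext; decide +kernel
theorem K_F : K * F * K⁻¹ = F ^ 2 := by apply perm_ext; decide +kernel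
theorem K_rel5 : (X ^ 5 * K) ^ 5 = 1 := by apply perm_ext; decide +kernel
theorem K_rel6 : (X ^ 6 * K) ^ 5 = 1 := by apply perm_ext; decide +kernel
theorem S_X : S * X * S⁻¹ = X⁻¹ := by apply perm_ext; decide +kernel
theorem S_F : S * F = F * S := by apply perm_ext; decide +kernel

open Cfsg.Agent.SporadicStructure.M11InvPerms Cfsg.Agent.MTwelveType.SylowModel in
theorem X_dd : ∀ p ∈ dd, X p ∈ dd := by decide +kernel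

open Cfsg.Agent.SporadicStructure.M11InvPerms Cfsg.Agent.MTwelveType.SylowModel in
theorem F_dd : ∀ p ∈ dd, F p ∈ dd := by decide +kernel

open Cfsg.Agent.SporadicStructure.M11InvPerms Cfsg.Agent.MTwelveType.SylowModel in
theorem W_dd : ∀ p ∈ dd, W p ∈ dd := by decide +kernel

open Cfsg.Agent.SporadicStructure.M11InvPerms Cfsg.Agent.MTwelveType.SylowModel in
theorem U_dd : ∀ p ∈ dd, U p ∈ dd := by decide +kernel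

open Cfsg.Agent.SporadicStructure.M11InvPerms Cfsg.Agent.MTwelveType.SylowModel in
theorem V_dd : ∀ p ∈ dd, V p ∈ dd := by decide +kernel

theorem X_mem12 : X ∈ Spor.M12 := MTwelveType.SylowModel.mem_M12 X_mem24 X_dd
theorem F_mem12 : F ∈ Spor.M12 := MTwelveType.SylowModel.mem_M12 F_mem24 F_dd
theorem W_mem12 : W ∈ Spor.M12 := MTwelveType.SylowModel.mem_M12 W_mem24 W_dd
theorem U_mem12 : U ∈ Spor.M12 := MTwelveType.SylowModel.mem_M12 U_mem24 U_dd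
theorem V_mem12 : V ∈ Spor.M12 := MTwelveType.SylowModel.mem_M12 V_mem24 V_dd
theorem X_mem11 : X ∈ Spor.M11 := by
  refine Subgroup.mem_inf.2 ⟨X_mem12, ?_⟩
  rw [MulAction.mem_stabilizer_iff]
  show X (some 0) = some 0
  decide +kernel
theorem F_mem11 : F ∈ Spor.M11 := by
  refine Subgroup.mem_inf.2 ⟨F_mem12, ?_⟩
  rw [MulAction.mem_stabilizer_iff]
  show F (some 0) = some 0
  decide +kernel
theorem W_mem11 : W ∈ Spor.M11 := by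
  refine Subgroup.mem_inf.2 ⟨W_mem12, ?_⟩
  rw [MulAction.mem_stabilizer_iff]
  show W (some 0) = some 0
  decide +kernel
theorem U_mem11 : U ∈ Spor.M11 := by
  refine Subgroup.mem_inf.2 ⟨U_mem12, ?_⟩
  rw [MulAction.mem_stabilizer_iff]
  show U (some 0) = some 0
  decide +kernel
theorem X_mem23 : X ∈ Spor.M23 := by
  refine Subgroup.mem_inf.2 ⟨X_mem24, ?_⟩
  rw [MulAction.mem_stabilizer_iff]
  show X none = none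
  decide +kernel
theorem F_mem23 : F ∈ Spor.M23 := by
  refine Subgroup.mem_inf.2 ⟨F_mem24, ?_⟩
  rw [MulAction.mem_stabilizer_iff]
  show F none = none
  decide +kernel
theorem W_mem23 : W ∈ Spor.M23 := by
  refine Subgroup.mem_inf.2 ⟨W_mem24, ?_⟩
  rw [MulAction.mem_stabilizer_iff]
  show W none = none
  decide +kernel
theorem V_mem23 : V ∈ Spor.M23 := by
  refine Subgroup.mem_inf.2 ⟨V_mem24, ?_⟩
  rw [MulAction.mem_stabilizer_iff]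
  show V none = none
  decide +kernel
theorem K_mem23 : K ∈ Spor.M23 := by
  refine Subgroup.mem_inf.2 ⟨K_mem24, ?_⟩
  rw [MulAction.mem_stabilizer_iff]
  show K none = none
  decide +kernel
theorem X_mem22 : X ∈ Spor.M22 := by
  refine Subgroup.mem_inf.2 ⟨X_mem23, ?_⟩
  rw [MulAction.mem_stabilizer_iff]
  show X (some 0) = some 0
  decide +kernel
theorem F_mem22 : F ∈ Spor.M22 := by
  refine Subgroup.mem_inf.2 ⟨F_mem23, ?_⟩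
  rw [MulAction.mem_stabilizer_iff]
  show F (some 0) = some 0
  decide +kernel
theorem W_mem22 : W ∈ Spor.M22 := by
  refine Subgroup.mem_inf.2 ⟨W_mem23, ?_⟩
  rw [MulAction.mem_stabilizer_iff]
  show W (some 0) = some 0
  decide +kernel
theorem K_mem22 : K ∈ Spor.M22 := by
  refine Subgroup.mem_inf.2 ⟨K_mem23, ?_⟩
  rw [MulAction.mem_stabilizer_iff]
  show K (some 0) = some 0
  decide +kernel

/-- the stabiliser chain of `M11` -/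
def chain11 : List (GolayPt × List (List ℕ)) :=
  [(some 1, [[], [0], [1], [2], [3], [0, 1], [0, 3], [2, 1], [2, 2], [3, 2], [0, 0, 1]]), (some 2, [[], [1, 0, 0], [1,
   1, 0], [2, 1, 1], [2, 2, 3], [1, 0, 1, 1], [1, 1, 2, 3], [2, 2, 1, 0], [0, 3, 0, 0, 0], [2, 2, 1, 2, 3]]), (some
   3, [[], [0, 1, 0, 0, 1, 0], [0, 3, 0, 1, 2, 3], [0, 3, 2, 1, 0, 1], [2, 3, 0, 3, 0, 0], [2, 3, 2, 2, 3, 2], [1,
   0, 0, 0, 3, 0, 3], [1, 2, 1, 2, 2, 2, 3], [0, 1, 0, 1, 2, 1, 0, 0]]), (some 4, [[], [0, 0, 0, 1, 2, 2, 2], [0, 0,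
   0, 3, 2, 2, 2], [0, 0, 0, 0, 3, 0, 0, 3], [0, 0, 0, 1, 1, 2, 2, 2], [0, 1, 0, 1, 1, 2, 2, 1], [0, 0, 0, 1, 0, 3,
   0, 0, 3], [0, 0, 0, 3, 0, 3, 0, 0, 3]])]

theorem chain11_ok : ok (X) (U) [] chain11 = true := by decide +kernel

theorem size11 : size chain11 = 7920 := by decide +kernel

theorem closure11 : Subgroup.closure ({X, U} : Set (Equiv.Perm GolayPt)) = Spor.M11 :=
  Chain.closure_eq X_mem11 U_mem11 chain11 chain11_ok (by rw [size11, H807.El.card_M11])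

/-- the stabiliser chain of `M12` -/
def chain12 : List (GolayPt × List (List ℕ)) :=
  [(some 0, [[], [1], [0, 1], [2, 1], [0, 0, 1], [1, 0, 1], [1, 2, 1], [3, 2, 1], [0, 0, 0, 1], [0, 1, 0, 1], [0, 3,
   2, 1], [2, 1, 2, 1]]), (some 1, [[], [0], [2], [0, 0], [1, 1], [2, 2], [0, 0, 0], [0, 1, 1], [2, 1, 1], [2, 2,
   2], [0, 0, 1, 1]]), (some 2, [[], [0, 0, 1, 1, 0], [2, 1, 1, 2, 2], [0, 1, 1, 0, 1, 1], [1, 1, 2, 1, 1, 2], [1,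
   0, 0, 1, 2, 3, 0], [1, 1, 0, 0, 0, 0, 0], [2, 1, 0, 3, 2, 2, 3], [1, 2, 3, 0, 0, 3, 2, 3], [0, 3, 2, 2, 2, 2, 3,
   2, 3]]), (some 3, [[], [2, 2, 1, 1, 0, 0], [0, 1, 0, 0, 1, 2, 3], [0, 0, 0, 1, 1, 2, 2, 2], [1, 0, 0, 3, 0, 0, 0,
   3], [1, 2, 2, 2, 1, 2, 2, 3], [3, 2, 2, 2, 1, 2, 2, 1], [1, 0, 0, 0, 1, 2, 3, 0, 1], [2, 1, 2, 1, 2, 1, 0, 0,
   1]]), (some 4, [[], [0, 1, 0, 1, 1, 2, 3, 2, 3], [0, 3, 2, 1, 0, 1, 2, 2, 1, 2, 1], [3, 0, 3, 0, 0, 3, 2, 3, 0,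
   1, 2], [1, 2, 1, 0, 0, 1, 2, 1, 0, 0, 0, 1], [2, 2, 2, 1, 2, 3, 2, 2, 3, 0, 0, 1], [3, 2, 2, 1, 0, 0, 1, 0, 3, 0,
   0, 0], [3, 2, 2, 2, 3, 0, 3, 2, 2, 3, 0, 3]])]

theorem chain12_ok : ok (X * U) (V) [] chain12 = true := by decide +kernel

theorem size12 : size chain12 = 95040 := by decide +kernel

theorem closure12 : Subgroup.closure ({X * U, V} : Set (Equiv.Perm GolayPt)) = Spor.M12 :=
  Chain.closure_eq (mul_mem X_mem12 U_mem12) V_mem12 chain12 chain12_ok (by rw [size12, H807.El.card_M12])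

/-- the stabiliser chain of `M22` -/
def chain22 : List (GolayPt × List (List ℕ)) :=
  [(some 1, [[], [0], [1], [2], [3], [0, 1], [0, 3], [1, 2], [2, 1], [2, 2], [3, 2], [0, 0, 1], [0, 0, 3], [0, 1, 2],
   [1, 0, 3], [1, 2, 1], [3, 0, 3], [0, 0, 1, 2], [0, 1, 0, 3], [0, 3, 0, 3], [1, 0, 0, 1], [1, 0, 1, 2]]), (some 2,
   [[], [1, 0, 0], [1, 1, 0], [2, 1, 1], [2, 2, 3], [1, 0, 1, 1], [1, 1, 2, 3], [2, 2, 1, 0], [2, 3, 0, 0], [0, 0,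
   1, 2, 2], [0, 0, 3, 2, 2], [0, 1, 2, 1, 2], [0, 3, 0, 3, 2], [1, 1, 2, 1, 0], [0, 1, 0, 1, 2, 1], [0, 1, 0, 3, 2,
   1], [0, 1, 2, 3, 0, 1], [0, 3, 0, 1, 0, 1], [1, 0, 0, 1, 1, 0], [3, 2, 1, 0, 3, 2], [3, 2, 2, 2, 3, 2, 2]]),
   (some 3, [[], [2, 1, 0, 1, 1, 2, 1], [3, 0, 1, 1, 2, 3, 0], [0, 3, 2, 3, 2, 3, 0, 3], [1, 0, 3, 0, 0, 1, 0, 0],
   [1, 2, 1, 0, 1, 0, 1, 2], [2, 2, 3, 2, 2, 1, 2, 3], [0, 0, 3, 0, 0, 3, 2, 1, 2], [0, 3, 0, 1, 2, 2, 1, 2, 2], [1,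
   1, 2, 1, 0, 1, 1, 2, 3], [2, 1, 2, 1, 0, 1, 0, 3, 0], [2, 2, 2, 2, 2, 3, 2, 3, 2], [0, 0, 0, 3, 2, 2, 2, 2, 3,
   2], [0, 0, 1, 0, 1, 1, 2, 3, 2, 2], [0, 0, 1, 2, 1, 1, 0, 3, 2, 3], [0, 3, 3, 2, 2, 2, 3, 3, 0, 1], [2, 1, 0, 0,
   3, 0, 1, 0, 1, 2], [3, 0, 0, 0, 0, 3, 2, 2, 1, 0], [3, 2, 2, 2, 2, 3, 3, 0, 3, 0], [3, 2, 3, 0, 0, 0, 1, 0, 0,
   0]]), (some 4, [[], [0, 0, 0, 1, 1, 2, 2, 2], [3, 2, 2, 2, 3, 3, 0, 0, 0, 1], [0, 0, 1, 2, 1, 0, 1, 0, 0, 0, 3],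
   [0, 0, 1, 2, 1, 0, 3, 0, 0, 0, 3], [1, 2, 1, 2, 3, 3, 0, 3, 0, 0, 0], [2, 2, 2, 1, 2, 1, 1, 0, 3, 0, 3], [3, 2,
   2, 1, 0, 1, 2, 1, 2, 2, 2], [3, 2, 2, 1, 0, 1, 2, 3, 2, 2, 2], [0, 3, 2, 2, 3, 0, 0, 3, 2, 2, 2, 3], [2, 2, 3, 2,
   2, 2, 3, 2, 2, 2, 3, 2], [2, 3, 3, 0, 1, 0, 0, 0, 3, 0, 0, 3], [3, 0, 3, 0, 3, 2, 3, 0, 3, 0, 0, 3], [3, 2, 3, 0,
   0, 3, 2, 2, 3, 0, 0, 0], [0, 1, 2, 2, 3, 2, 2, 3, 2, 3, 2, 2, 2], [0, 3, 0, 0, 1, 0, 0, 3, 0, 1, 0, 0, 1]]),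
   (some 5, [[], [3, 2, 1, 2, 3, 3, 0, 3, 0, 0, 0, 1, 1], [3, 3, 2, 2, 2, 1, 2, 1, 1, 0, 3, 0, 1]])]

theorem chain22_ok : ok (X) (K) [] chain22 = true := by decide +kernel

theorem size22 : size chain22 = 443520 := by decide +kernel

theorem closure22 : Subgroup.closure ({X, K} : Set (Equiv.Perm GolayPt)) = Spor.M22 :=
  Chain.closure_eq X_mem22 K_mem22 chain22 chain22_ok (by rw [size22, H807.El.card_M22])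

/-- the stabiliser chain of `M23` -/
def chain23 : List (GolayPt × List (List ℕ)) :=
  [(some 0, [[], [1], [0, 1], [2, 1], [0, 0, 1], [1, 0, 1], [2, 2, 1], [3, 2, 1], [0, 1, 0, 1], [0, 3, 2, 1], [1, 0,
   0, 1], [1, 2, 2, 1], [2, 3, 2, 1], [3, 2, 2, 1], [0, 0, 3, 2, 1], [0, 1, 0, 0, 1], [0, 1, 2, 2, 1], [1, 0, 1, 0,
   1], [1, 2, 3, 2, 1], [2, 1, 0, 0, 1], [2, 3, 2, 2, 1], [3, 2, 3, 2, 1], [0, 1, 0, 1, 0, 1]]), (some 1, [[], [0],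
   [2], [0, 0], [1, 1], [2, 2], [0, 0, 0], [0, 1, 1], [1, 1, 0], [2, 1, 1], [2, 2, 2], [0, 0, 1, 1], [0, 1, 1, 0],
   [2, 1, 1, 0], [2, 2, 1, 1], [0, 0, 0, 1, 1], [0, 0, 1, 1, 0], [1, 0, 3, 0, 1], [1, 0, 3, 0, 3], [1, 1, 0, 1, 1],
   [0, 1, 1, 0, 1, 1], [1, 0, 3, 0, 1, 0]]), (some 2, [[], [0, 1, 1, 0, 0], [2, 2, 1, 1, 2], [0, 0, 1, 1, 2, 2], [0,
   3, 2, 1, 2, 1], [3, 0, 3, 0, 1, 2], [2, 2, 1, 2, 1, 2, 1], [3, 0, 3, 0, 3, 0, 0], [1, 0, 3, 0, 3, 2, 1, 1], [1,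
   1, 0, 1, 2, 1, 2, 3], [1, 2, 2, 1, 1, 0, 0, 3], [2, 2, 2, 1, 1, 0, 0, 0], [0, 0, 0, 1, 0, 3, 0, 3, 0], [0, 1, 2,
   2, 2, 1, 0, 1, 2], [1, 0, 1, 1, 0, 0, 1, 2, 3], [1, 1, 0, 1, 1, 2, 2, 1, 1], [1, 2, 2, 2, 1, 0, 1, 0, 0], [2, 2,
   3, 2, 3, 0, 0, 0, 3], [3, 2, 2, 1, 1, 2, 1, 0, 1], [3, 2, 2, 2, 1, 1, 2, 3, 0], [1, 1, 0, 0, 1, 0, 3, 0, 3, 2]]),
   (some 3, [[], [0, 1, 2, 2, 2, 1, 1, 2, 1], [3, 0, 1, 1, 0, 0, 0, 3, 2], [1, 0, 3, 2, 1, 1, 0, 1, 2, 3], [1, 2, 1,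
   2, 1, 1, 0, 3, 0, 3], [3, 0, 3, 2, 1, 1, 0, 1, 2, 1], [3, 2, 1, 2, 1, 1, 0, 3, 0, 1], [0, 0, 0, 1, 2, 1, 2, 3, 0,
   0, 0], [1, 1, 0, 1, 2, 2, 2, 1, 1, 2, 3], [1, 2, 1, 1, 0, 0, 0, 3, 0, 0, 1], [3, 2, 1, 1, 0, 0, 0, 3, 0, 0, 3],
   [1, 2, 1, 0, 1, 2, 1, 2, 3, 0, 3, 0], [1, 2, 2, 3, 2, 3, 3, 0, 0, 1, 0, 3], [2, 1, 2, 1, 2, 2, 1, 2, 1, 0, 0, 0],
   [2, 3, 0, 3, 2, 1, 1, 2, 1, 0, 1, 2], [2, 3, 2, 1, 0, 0, 0, 1, 0, 1, 2, 2], [3, 2, 2, 3, 2, 3, 3, 0, 0, 1, 0, 1],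
   [3, 2, 3, 2, 2, 3, 3, 0, 1, 0, 0, 1], [1, 2, 2, 1, 2, 1, 1, 2, 3, 0, 0, 3, 0, 1], [2, 3, 2, 2, 1, 2, 2, 2, 3, 2,
   3, 0, 0, 0]]), (some 4, [[], [0, 0, 0, 1, 0, 1, 0, 0, 0, 1, 0, 0, 1], [3, 2, 2, 3, 2, 2, 2, 3, 2, 3, 2, 2, 2],
   [0, 0, 3, 3, 0, 0, 3, 3, 2, 2, 1, 1, 2, 2], [0, 1, 0, 0, 3, 2, 3, 0, 1, 0, 0, 1, 2, 1], [1, 0, 3, 0, 3, 0, 1, 0,
   3, 3, 0, 0, 0, 3], [3, 0, 1, 0, 0, 3, 2, 3, 0, 3, 2, 1, 0, 1], [3, 0, 3, 0, 3, 0, 1, 0, 3, 3, 0, 0, 0, 1], [3, 0,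
   3, 2, 2, 3, 2, 1, 0, 1, 2, 2, 3, 2], [3, 2, 3, 0, 1, 2, 1, 0, 1, 2, 2, 3, 2, 1], [0, 3, 0, 0, 0, 3, 3, 0, 3, 0,
   3, 0, 0, 1, 2], [1, 2, 2, 3, 2, 2, 2, 3, 2, 3, 2, 2, 2, 1, 1], [1, 2, 3, 2, 2, 1, 0, 0, 1, 2, 3, 2, 1, 0, 0], [2,
   1, 0, 0, 3, 0, 0, 3, 2, 3, 2, 2, 3, 2, 2], [2, 3, 2, 3, 2, 2, 3, 3, 0, 3, 0, 0, 3, 0, 0], [3, 0, 3, 3, 0, 0, 3,
   0, 3, 3, 2, 1, 0, 3, 2]]), (some 5, [[], [1, 2, 1, 2, 3, 0, 0, 3, 0, 0, 1, 2, 1, 2, 2, 1], [3, 0, 0, 3, 0, 3, 2,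
   2, 1, 2, 2, 1, 0, 3, 0, 3]])]

theorem chain23_ok : ok (X * K) (V) [] chain23 = true := by decide +kernel

theorem size23 : size chain23 = 10200960 := by decide +kernel

theorem closure23 : Subgroup.closure ({X * K, V} : Set (Equiv.Perm GolayPt)) = Spor.M23 :=
  Chain.closure_eq (mul_mem X_mem23 K_mem23) V_mem23 chain23 chain23_ok (by rw [size23, H807.El.card_M23])

/-- the stabiliser chain of `M24` -/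
def chain24 : List (GolayPt × List (List ℕ)) :=
  [(some 0, [[], [1], [3], [0, 1], [0, 3], [2, 1], [2, 3], [0, 0, 1], [0, 0, 3], [1, 2, 1], [1, 2, 3], [2, 2, 1], [2,
   2, 3], [3, 2, 3], [0, 0, 0, 1], [0, 0, 0, 3], [0, 1, 2, 1], [1, 1, 2, 3], [1, 2, 2, 1], [2, 3, 2, 3], [3, 0, 0,
   1], [0, 1, 1, 2, 3], [2, 2, 3, 2, 3], [1, 2, 2, 3, 2, 3]]), (some 1, [[], [0], [2], [0, 0], [2, 2], [0, 0, 0],
   [1, 1, 1], [2, 2, 2], [0, 0, 0, 0], [0, 1, 1, 1], [2, 2, 2, 2], [3, 0, 1, 0, 3], [0, 3, 0, 1, 0, 3], [1, 1, 0, 1,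
   0, 3], [1, 2, 3, 2, 1, 0], [2, 3, 0, 1, 0, 3], [3, 2, 1, 0, 1, 0], [3, 2, 3, 0, 3, 3], [0, 1, 1, 0, 1, 0, 3], [0,
   1, 2, 3, 2, 1, 0], [1, 0, 1, 2, 2, 2, 1], [1, 2, 1, 1, 2, 1, 0], [3, 0, 1, 0, 1, 1, 0]]), (some 2, [[], [0, 0, 1,
   1, 1, 0], [2, 1, 1, 1, 2, 2], [3, 2, 1, 1, 0, 1], [3, 2, 3, 3, 0, 1], [2, 1, 2, 3, 2, 1, 2], [3, 0, 1, 1, 1, 2,
   1], [0, 0, 3, 2, 3, 0, 1, 2], [0, 1, 1, 0, 1, 0, 1, 1], [0, 1, 1, 1, 0, 1, 1, 1], [0, 3, 0, 3, 3, 0, 3, 0], [0,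
   3, 2, 1, 0, 3, 3, 0], [1, 1, 1, 0, 0, 0, 0, 0], [2, 1, 1, 2, 3, 0, 1, 2], [2, 1, 2, 1, 1, 2, 1, 2], [0, 0, 3, 0,
   3, 3, 0, 1, 1], [0, 1, 0, 0, 3, 2, 2, 1, 0], [0, 1, 2, 3, 2, 2, 3, 0, 1], [0, 3, 0, 1, 1, 1, 2, 1, 2], [0, 3, 0,
   3, 0, 1, 2, 2, 1], [1, 0, 0, 3, 0, 3, 2, 1, 1], [2, 2, 2, 2, 3, 2, 3, 0, 1]]), (some 3, [[], [2, 2, 1, 1, 1, 0,
   0], [0, 0, 0, 1, 1, 1, 2, 2, 2], [3, 2, 2, 2, 3, 3, 0, 0, 0, 1], [0, 0, 3, 0, 1, 1, 1, 2, 3, 3, 2], [0, 1, 1, 0,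
   1, 1, 1, 2, 1, 2, 2], [0, 3, 0, 0, 1, 2, 2, 2, 3, 2, 1], [1, 2, 2, 1, 0, 3, 3, 3, 0, 1, 0], [2, 1, 1, 1, 0, 0, 1,
   2, 3, 2, 1], [2, 2, 1, 0, 1, 2, 1, 1, 0, 0, 3], [2, 2, 1, 2, 3, 3, 3, 0, 3, 0, 0], [2, 2, 3, 0, 3, 3, 3, 2, 1, 0,
   0], [3, 0, 1, 0, 0, 0, 3, 2, 2, 1, 2], [3, 0, 1, 0, 3, 2, 2, 3, 3, 3, 0], [3, 0, 1, 0, 3, 3, 3, 2, 3, 2, 1], [3,
   0, 1, 2, 1, 0, 0, 0, 1, 0, 3], [3, 3, 0, 0, 1, 0, 1, 1, 2, 1, 2], [0, 0, 1, 0, 0, 1, 1, 0, 0, 1, 2, 2], [1, 2, 1,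
   1, 0, 3, 0, 1, 1, 2, 2, 1], [2, 2, 3, 3, 0, 1, 2, 1, 1, 0, 0, 3], [3, 0, 3, 0, 1, 2, 2, 1, 2, 2, 2, 2]]), (some
   4, [[], [3, 2, 3, 2, 1, 0, 1, 0, 0, 0, 0, 1], [0, 0, 3, 0, 1, 1, 0, 1, 1, 2, 2, 3, 0], [2, 1, 0, 0, 3, 3, 2, 3,
   3, 2, 1, 2, 2], [2, 2, 3, 3, 2, 3, 3, 3, 0, 1, 1, 0, 0], [0, 0, 0, 3, 3, 2, 3, 3, 0, 0, 3, 0, 0, 1], [1, 0, 3, 2,
   2, 3, 3, 0, 0, 0, 1, 0, 1, 0], [2, 1, 0, 1, 2, 2, 3, 0, 1, 2, 2, 3, 3, 0], [2, 1, 1, 0, 0, 3, 2, 1, 0, 0, 3, 2,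
   3, 0], [2, 1, 2, 2, 1, 0, 3, 0, 3, 2, 3, 2, 3, 3], [2, 3, 2, 1, 2, 2, 3, 3, 0, 3, 0, 0, 3, 0], [3, 0, 0, 3, 0, 0,
   3, 3, 2, 2, 2, 3, 3, 2], [0, 3, 3, 2, 2, 3, 2, 3, 2, 3, 2, 1, 0, 3, 0], [2, 1, 0, 0, 0, 0, 0, 3, 0, 3, 0, 0, 0,
   0, 0], [2, 1, 0, 1, 0, 0, 3, 2, 3, 2, 2, 3, 2, 1, 1], [2, 1, 2, 3, 0, 1, 0, 1, 0, 1, 0, 0, 1, 1, 2], [2, 2, 1, 2,
   2, 2, 1, 0, 3, 0, 1, 1, 2, 1, 1], [2, 3, 2, 1, 0, 0, 3, 3, 3, 2, 2, 3, 0, 1, 0], [3, 0, 1, 1, 0, 1, 0, 3, 0, 3,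
   2, 1, 0, 1, 1], [3, 3, 2, 3, 0, 1, 2, 1, 2, 3, 2, 3, 3, 2, 1]]), (some 5, [[], [0, 0, 3, 3, 2, 3, 3, 3, 0, 1, 1,
   2, 2], [1, 0, 1, 1, 2, 1, 0, 1, 0, 1, 0, 1, 2, 2, 1], [3, 0, 0, 3, 2, 3, 2, 3, 2, 3, 0, 3, 3, 2, 3], [3, 2, 2, 1,
   1, 2, 3, 3, 3, 0, 3, 3, 0, 0, 1], [0, 3, 0, 0, 3, 2, 2, 1, 2, 1, 2, 1, 2, 1, 0, 0], [0, 3, 2, 3, 0, 3, 2, 1, 1,
   2, 2, 3, 0, 3, 3, 0], [1, 2, 3, 3, 2, 2, 3, 3, 0, 0, 1, 0, 1, 2, 2, 1], [2, 1, 1, 2, 1, 0, 0, 3, 3, 0, 1, 2, 1,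
   0, 1, 2], [2, 2, 3, 0, 3, 0, 3, 0, 3, 0, 0, 1, 2, 2, 1, 2], [0, 0, 0, 0, 1, 2, 1, 2, 3, 3, 2, 1, 2, 3, 0, 1, 0],
   [1, 1, 2, 1, 1, 0, 3, 0, 0, 1, 0, 0, 3, 2, 2, 2, 2], [1, 2, 1, 2, 1, 2, 2, 1, 2, 1, 2, 3, 2, 2, 3, 0, 0], [2, 3,
   0, 3, 3, 2, 3, 3, 3, 2, 1, 1, 2, 3, 2, 2, 3], [2, 3, 2, 1, 0, 3, 0, 1, 1, 0, 3, 0, 3, 2, 2, 2, 2], [3, 2, 1, 0,
   3, 0, 0, 0, 0, 1, 2, 3, 0, 1, 0, 1, 0]]), (some 6, [[], [0, 3, 2, 3, 2, 3, 2, 2, 2, 2, 1, 2, 3, 3, 0, 0, 0, 0],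
   [2, 2, 2, 2, 1, 1, 0, 3, 0, 0, 0, 0, 1, 0, 1, 0, 1, 2]])]

theorem chain24_ok : ok (X * U) (K * V) [] chain24 = true := by decide +kernel

theorem size24 : size chain24 = 244823040 := by decide +kernel

theorem closure24 : Subgroup.closure ({X * U, K * V} : Set (Equiv.Perm GolayPt)) = M24 :=
  Chain.closure_eq (mul_mem X_mem24 U_mem24) (mul_mem K_mem24 V_mem24) chain24 chain24_ok (by rw [size24, H807.El.card_M24])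

/-- `Spor.M11` is generated by X, U -/
theorem le11 {H : Subgroup (Equiv.Perm GolayPt)} (hX : X ∈ H) (hU : U ∈ H) : Spor.M11 ≤ H := by
  rw [← closure11, Subgroup.closure_le]
  rintro _ (rfl | rfl)
  · exact hX
  · exact hU

/-- `Spor.M12` is generated by X, U, V -/
theorem le12 {H : Subgroup (Equiv.Perm GolayPt)} (hX : X ∈ H) (hU : U ∈ H) (hV : V ∈ H) : Spor.M12 ≤ H := by
  rw [← closure12, Subgroup.closure_le]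
  rintro _ (rfl | rfl)
  · exact H.mul_mem hX hU
  · exact hV

/-- `Spor.M22` is generated by X, K -/
theorem le22 {H : Subgroup (Equiv.Perm GolayPt)} (hX : X ∈ H) (hK : K ∈ H) : Spor.M22 ≤ H := by
  rw [← closure22, Subgroup.closure_le]
  rintro _ (rfl | rfl)
  · exact hX
  · exact hK

/-- `Spor.M23` is generated by X, V, K -/
theorem le23 {H : Subgroup (Equiv.Perm GolayPt)} (hX : X ∈ H) (hV : V ∈ H) (hK : K ∈ H) : Spor.M23 ≤ H := by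
  rw [← closure23, Subgroup.closure_le]
  rintro _ (rfl | rfl)
  · exact H.mul_mem hX hK
  · exact hV

/-- `M24` is generated by X, U, V, K -/
theorem le24 {H : Subgroup (Equiv.Perm GolayPt)} (hX : X ∈ H) (hU : U ∈ H) (hV : V ∈ H) (hK : K ∈ H) : M24 ≤ H := by
  rw [← closure24, Subgroup.closure_le]
  rintro _ (rfl | rfl)
  · exact H.mul_mem hX hU
  · exact H.mul_mem hK hV

end Cfsg.Agent.H837.JM.Math
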